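import Cfsg.Agent.Lib.SylowS8.Model
import Mathlib.GroupTheory.Nilpotent

/-! Automorphisms of the model. -/

set_option autoImplicit false

namespace Cfsg.Agent.Lib.SylowS8

open SemidirectProduct

set_option maxRecDepth 100000

def Wg : Subgroup M := V1 ⊓ V2

theorem mem_Wg {x : M} : x ∈ Wg ↔ InW x := Iff.rfl

theorem card_Wg : Nat.card Wg = 4 := by
  have : Fintype.card {x : M // InW x} = 4 := by decide +kernel
  exact ((Nat.card_eq_fintype_card (α := {x : M // InW x})).trans this :)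

theorem gens_inV : InV 0 ga ∧ InV 0 ga' ∧ InV 1 gb ∧ InV 1 gb' := gen_facts.1.1 |> fun h =>
  ⟨h, gen_facts.1.2.1, gen_facts.1.2.2.1, gen_facts.1.2.2.2.1⟩

theorem comm_a : ∀ u : M, InV 1 u → CommIn gc ga u ∧ CommIn gc' ga' u := by decide +kernel
theorem comm_b : ∀ u : M, InV 0 u → CommIn gc gb u ∧ CommIn gc' gb' u := by decide +kernel

theorem base_comm : ∀ g ∈ ([ga, gb, ga', gb'] : List M), g * g = 1 ∧ ∀ h ∈ ([ga, gb, ga', gb'] : List M),
    InW (g * h * g⁻¹ * h⁻¹) := by decide +kernel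

theorem inW_conj (g : M) {w : M} (hw : InW w) : InW (g * w * g⁻¹) :=
  ⟨(inV_conj w (Or.inl hw.1) g).1 hw.1, (inV_conj w (Or.inl hw.1) g).2 hw.2⟩

theorem inW_base : ∀ w : M, InW w → ∀ g ∈ ([ga, gb, ga', gb'] : List M), w * g = g * w := by decide +kernel

theorem adjust_comm : ∀ w : M, InW w → ∀ u ∈ ([1, ga', gb', ga' * gb'] : List M),
    u * (gb * w) = gb * w * u ∧ u * (ga * w) = ga * w * u := by decide +kernel

theorem adjust_comm' : ∀ w : M, InW w → ∀ u ∈ ([1, ga, gb, ga * gb] : List M),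
    u * (gb' * w) = gb' * w * u ∧ u * (ga' * w) = ga' * w * u := by decide +kernel

theorem adjust_fix : ∀ u ∈ ([1, ga', gb', ga' * gb'] : List M), u * gc = gc * u := by decide +kernel
theorem adjust_fix' : ∀ u ∈ ([1, ga, gb, ga * gb] : List M), u * gc = gc * u := by decide +kernel

theorem inZ_cases : ∀ g ∈ ([ga, gb, ga', gb', gt] : List M), ∀ x : M, InZ (g * x) → x = g ∨ x = g * gz := by
  decide +kernel

theorem gc_eq : gc = (ga * gb) ^ 2 ∧ gc' = gc * gz ∧ gt * gc' * gt = gc := by decide +kernel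

theorem mem_base : ∀ n : N, ∃ (i k : Fin 4) (j l : Fin 2), (inl n : M) =
    (ga * gb) ^ (i : ℕ) * ga ^ (j : ℕ) * ((ga' * gb') ^ (k : ℕ) * ga' ^ (l : ℕ)) := by decide +kernel

theorem Wg_normal : Wg.Normal := ⟨fun w hw g => inW_conj g hw⟩

/-- A normal elementary abelian subgroup of order 16 is one of the two four-group products. -/
theorem classify (U : Subgroup M) (hn : U.Normal) (hab : ∀ x ∈ U, ∀ y ∈ U, x * y = y * x)
    (h2 : ∀ x ∈ U, x * x = 1) (hc : Nat.card U = 16) : U = V1 ∨ U = V2 := by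
  have hmem : ∀ x ∈ U, x ∈ V1 ∨ x ∈ V2 := fun x hx =>
    good_mem x (h2 x hx) (hab x hx _ (hn.conj_mem x hx _)) (hab x hx _ (hn.conj_mem x hx _))
  by_cases h1 : U ≤ V1
  · exact Or.inl (Subgroup.eq_of_le_of_card_ge h1 (by rw [card_V1, hc]))
  · obtain ⟨x, hxU, hx1⟩ := SetLike.not_le_iff_exists.1 h1
    refine Or.inr (Subgroup.eq_of_le_of_card_ge (fun y hy => ?_) (by rw [card_V2, hc]))
    have hx2 : x ∈ V2 := (hmem x hxU).resolve_left hx1
    rcases hmem y hy with hy1 | hy2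
    · rcases hmem (x * y) (U.mul_mem hxU hy) with h | h
      · exact absurd (by simpa using V1.mul_mem h (V1.inv_mem hy1)) hx1
      · simpa using V2.mul_mem (V2.inv_mem hx2) h
    · exact hy2

theorem V1_ne_V2 : V1 ≠ V2 := fun h => by
  have : InV 1 ga := (h ▸ gens_inV.1 : ga ∈ V2)
  exact gen_facts.2.1.1 ⟨gens_inV.1, this⟩

theorem map_V1 (θ : M ≃* M) : V1.map θ.toMonoidHom = V1 ∨ V1.map θ.toMonoidHom = V2 := by
  refine classify _ (Subgroup.Normal.map ⟨fun x hx g => (inV_conj x (Or.inl hx) g).1 hx⟩ _ θ.surjective) ?_ ?_ ?_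
  · rintro _ ⟨x, hx, rfl⟩ _ ⟨y, hy, rfl⟩
    rw [← map_mul, ← map_mul, inV_comm x hx y hy]
  · rintro _ ⟨x, hx, rfl⟩
    rw [← map_mul, inV_sq x (Or.inl hx), map_one]
  · rw [Subgroup.card_map_of_injective θ.injective, card_V1]

theorem map_V2 (θ : M ≃* M) : V2.map θ.toMonoidHom = V1 ∨ V2.map θ.toMonoidHom = V2 := by
  refine classify _ (Subgroup.Normal.map ⟨fun x hx g => (inV_conj x (Or.inr hx) g).2 hx⟩ _ θ.surjective) ?_ ?_ ?_
  · rintro _ ⟨x, hx, rfl⟩ _ ⟨y, hy, rfl⟩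
    rw [← map_mul, ← map_mul, inV_comm' x hx y hy]
  · rintro _ ⟨x, hx, rfl⟩
    rw [← map_mul, inV_sq x (Or.inr hx), map_one]
  · rw [Subgroup.card_map_of_injective θ.injective, card_V2]

theorem map_V2_of_map_V1 (θ : M ≃* M) :
    (V1.map θ.toMonoidHom = V1 → V2.map θ.toMonoidHom = V2) ∧
      (V1.map θ.toMonoidHom = V2 → V2.map θ.toMonoidHom = V1) := by
  have hne : V1.map θ.toMonoidHom ≠ V2.map θ.toMonoidHom := fun h =>
    V1_ne_V2 (Subgroup.map_injective θ.injective h)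
  constructor <;> intro h <;> rcases map_V2 θ with h' | h'
  · exact absurd (h.trans h'.symm) hne
  · exact h'
  · exact h'
  · exact absurd (h.trans h'.symm) hne

theorem map_W (θ : M ≃* M) {x : M} : InW (θ x) ↔ InW x := by
  have hmap : Wg.map θ.toMonoidHom = Wg := by
    rw [Wg, Subgroup.map_inf _ _ _ θ.injective]
    rcases map_V1 θ with h | h
    · rw [h, (map_V2_of_map_V1 θ).1 h]
    · rw [h, (map_V2_of_map_V1 θ).2 h, inf_comm]
  constructor
  · intro h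
    have h' : θ x ∈ Wg.map θ.toMonoidHom := hmap.symm ▸ h
    obtain ⟨y, hy, hxy⟩ := h'
    exact θ.injective hxy ▸ hy
  · intro h
    exact (hmap.le ⟨x, h, rfl⟩ : θ x ∈ Wg)

theorem map_gz (θ : M ≃* M) : θ gz = gz := by
  have hcomm : ∀ g, θ gz * g = g * θ gz := fun g => by
    obtain ⟨g, rfl⟩ := θ.surjective g
    rw [← map_mul, ← map_mul, gz_central g]
  rcases center_eq _ (hcomm _) (hcomm _) (hcomm _) with h | h
  · exact absurd (θ.injective (h.trans (map_one θ).symm)) gen_facts.1.2.2.2.2.2.2.2.2.2.2.2.2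
  · exact h

theorem map_gc (θ : M ≃* M) : θ gc = gc ∨ θ gc = gc' := by
  obtain ⟨-, -, -, -, hc, -, hc1, -, hcz, -⟩ := gen_facts.1
  rcases inW_cases _ ((map_W θ).2 hc) with h | h | h | h
  · exact absurd (θ.injective (h.trans (map_one θ).symm)) hc1
  · exact Or.inl h
  · exact Or.inr h
  · exact absurd (θ.injective (h.trans (map_gz θ).symm)) hcz

theorem map_commIn (θ : M ≃* M) {z x y : M} (h : CommIn z x y) : CommIn (θ z) (θ x) (θ y) := by
  rcases h with h | h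
  · exact Or.inl (by rw [← map_inv, ← map_inv, ← map_mul, ← map_mul, ← map_mul, h, map_one])
  · exact Or.inr (by rw [← map_inv, ← map_inv, ← map_mul, ← map_mul, ← map_mul, h])

theorem map_commIn' (θ : M ≃* M) {z x u y : M} (hz : θ z = z) (hu : θ u = y) (h : CommIn z x u) :
    CommIn z (θ x) y := by
  have := map_commIn θ h
  rwa [hz, hu] at this

/-- An automorphism fixing `V1` and `gc` is trivial on the base modulo `Wg`. -/
theorem fix_case (θ : M ≃* M) (h : V1.map θ.toMonoidHom = V1) (hc : θ gc = gc) :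
    ∀ g ∈ ([ga, gb, ga', gb'] : List M), InW (g * θ g) := by
  have h' := (map_V2_of_map_V1 θ).1 h
  have hc' : θ gc' = gc' := by rw [gc_eq.2.1, map_mul, hc, map_gz]
  obtain ⟨ha, ha', hb, hb'⟩ := gens_inV
  obtain ⟨na, nb, na', nb'⟩ := gen_facts.2.1
  have im1 : ∀ {x}, InV 0 x → InV 0 (θ x) := fun {x} hx => (h.le ⟨x, hx, rfl⟩ : θ x ∈ V1)
  have im2 : ∀ {x}, InV 1 x → InV 1 (θ x) := fun {x} hx => (h'.le ⟨x, hx, rfl⟩ : θ x ∈ V2)
  have sur1 : ∀ {y}, InV 0 y → ∃ x, InV 0 x ∧ θ x = y := fun {y} hy => h.ge hy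
  have sur2 : ∀ {y}, InV 1 y → ∃ x, InV 1 x ∧ θ x = y := fun {y} hy => h'.ge hy
  obtain ⟨a0, ha0, ea⟩ := sur1 ha
  obtain ⟨a0', ha0', ea'⟩ := sur1 ha'
  obtain ⟨b0, hb0, eb⟩ := sur2 hb
  obtain ⟨b0', hb0', eb'⟩ := sur2 hb'
  intro g hg
  fin_cases hg
  · exact narrow_a _ (im1 ha) (mt (map_W θ).1 na) (map_commIn' θ hc eb (comm_a _ hb0).1)
      (map_commIn' θ hc eb' (comm_a _ hb0').1)
  · exact narrow_b _ (im2 hb) (mt (map_W θ).1 nb) (map_commIn' θ hc ea (comm_b _ ha0).1)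
      (map_commIn' θ hc ea' (comm_b _ ha0').1)
  · exact narrow_a' _ (im1 ha') (mt (map_W θ).1 na') (map_commIn' θ hc' eb (comm_a _ hb0).2)
      (map_commIn' θ hc' eb' (comm_a _ hb0').2)
  · exact narrow_b' _ (im2 hb') (mt (map_W θ).1 nb') (map_commIn' θ hc' ea (comm_b _ ha0).2)
      (map_commIn' θ hc' ea' (comm_b _ ha0').2)

/-- An automorphism exchanging `V1`, `V2` and fixing `gc` exchanges the generators modulo `Wg`. -/
theorem swap_case (θ : M ≃* M) (h : V1.map θ.toMonoidHom = V2) (hc : θ gc = gc) :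
    InW (gb * θ ga) ∧ InW (ga * θ gb) ∧ InW (gb' * θ ga') ∧ InW (ga' * θ gb') := by
  have h' := (map_V2_of_map_V1 θ).2 h
  have hc' : θ gc' = gc' := by rw [gc_eq.2.1, map_mul, hc, map_gz]
  obtain ⟨ha, ha', hb, hb'⟩ := gens_inV
  obtain ⟨na, nb, na', nb'⟩ := gen_facts.2.1
  have im1 : ∀ {x}, InV 0 x → InV 1 (θ x) := fun {x} hx => (h.le ⟨x, hx, rfl⟩ : θ x ∈ V2)
  have im2 : ∀ {x}, InV 1 x → InV 0 (θ x) := fun {x} hx => (h'.le ⟨x, hx, rfl⟩ : θ x ∈ V1)
  obtain ⟨a0, ha0, ea⟩ : ∃ x, InV 1 x ∧ θ x = ga := h'.ge ha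
  obtain ⟨a0', ha0', ea'⟩ : ∃ x, InV 1 x ∧ θ x = ga' := h'.ge ha'
  obtain ⟨b0, hb0, eb⟩ : ∃ x, InV 0 x ∧ θ x = gb := h.ge hb
  obtain ⟨b0', hb0', eb'⟩ : ∃ x, InV 0 x ∧ θ x = gb' := h.ge hb'
  exact ⟨narrow_b _ (im1 ha) (mt (map_W θ).1 na) (map_commIn' θ hc ea (comm_a _ ha0).1)
      (map_commIn' θ hc ea' (comm_a _ ha0').1),
    narrow_a _ (im2 hb) (mt (map_W θ).1 nb) (map_commIn' θ hc eb (comm_b _ hb0).1)
      (map_commIn' θ hc eb' (comm_b _ hb0').1),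
    narrow_b' _ (im1 ha') (mt (map_W θ).1 na') (map_commIn' θ hc' ea (comm_a _ ha0).2)
      (map_commIn' θ hc' ea' (comm_a _ ha0').2),
    narrow_a' _ (im2 hb') (mt (map_W θ).1 nb') (map_commIn' θ hc' eb (comm_b _ hb0).2)
      (map_commIn' θ hc' eb' (comm_b _ hb0').2)⟩

end Cfsg.Agent.Lib.SylowS8
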