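import Mathlib.GroupTheory.SemidirectProduct
import Mathlib.GroupTheory.SpecificGroups.Dihedral
import Mathlib.GroupTheory.NoncommCoprod
import Mathlib.GroupTheory.Perm.Fin
import Mathlib.GroupTheory.Sylow

/-! The wreath product of the dihedral group of order 8 by a group of order 2, with its finite checks. -/

set_option autoImplicit false

namespace Cfsg.Agent.Lib.SylowS8

abbrev D := DihedralGroup 4
abbrev C2 := Multiplicative (ZMod 2)
abbrev N := D × D

/-- The non-trivial element of `C2`. -/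
def one2 : C2 := Multiplicative.ofAdd 1

/-- The homomorphism from `C2` given by an involution. -/
def ofInvol {G : Type*} [Group G] (u : G) (h : u * u = 1) : C2 →* G where
  toFun x := if x = 1 then 1 else u
  map_one' := if_pos rfl
  map_mul' x y := by
    have hx : ∀ z : C2, z = 1 ∨ z = one2 := by decide
    have h2 : one2 * one2 = 1 := by decide
    have h1 : one2 ≠ 1 := by decide
    rcases hx x with rfl | rfl <;> rcases hx y with rfl | rfl <;> simp [h2, h1, h]

theorem ofInvol_one2 {G : Type*} [Group G] (u : G) (h : u * u = 1) : ofInvol u h one2 = u :=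
  (if_neg (by decide) : (if one2 = 1 then (1 : G) else u) = u)

/-- The automorphism exchanging the two standard reflections. -/
def flipD : MulAut D where
  toFun
    | .r i => .r (-i)
    | .sr i => .sr (1 - i)
  invFun
    | .r i => .r (-i)
    | .sr i => .sr (1 - i)
  left_inv := by decide
  right_inv := by decide
  map_mul' := by decide

def swapN : MulAut N := MulEquiv.prodComm
def flipN : MulAut N := flipD.prodCongr flipD

theorem swap_swap : swapN * swapN = 1 := MulEquiv.ext fun x => rfl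
theorem flip_flip : flipN * flipN = 1 := by
  have : ∀ x : N, flipN (flipN x) = x := by decide
  exact MulEquiv.ext this

theorem swap_flip : swapN * flipN = flipN * swapN := MulEquiv.ext fun x => rfl

abbrev K := C2 × C2

def φK : K →* MulAut N :=
  (ofInvol swapN swap_swap).noncommCoprod (ofInvol flipN flip_flip) fun m n => by
    have hx : ∀ z : C2, z = 1 ∨ z = one2 := by decide
    rcases hx m with rfl | rfl <;> rcases hx n with rfl | rfl <;>
      simp [ofInvol_one2, Commute, SemiconjBy, swap_flip]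

def φM : C2 →* MulAut N := ofInvol swapN swap_swap

abbrev M := N ⋊[φM] C2
abbrev R := N ⋊[φK] K

instance : Fintype M := Fintype.ofEquiv _ SemidirectProduct.equivProd.symm
instance : Fintype R := Fintype.ofEquiv _ SemidirectProduct.equivProd.symm

open SemidirectProduct

def ga : M := inl (DihedralGroup.sr 0, 1)
def gb : M := inl (DihedralGroup.sr 1, 1)
def ga' : M := inl (1, DihedralGroup.sr 0)
def gb' : M := inl (1, DihedralGroup.sr 1)
def gt : M := inr one2
def gc : M := inl (DihedralGroup.r 2, 1)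
def gc' : M := inl (1, DihedralGroup.r 2)
def gz : M := inl (DihedralGroup.r 2, DihedralGroup.r 2)

/-- Membership in one of the two four-groups of `D` in each coordinate. -/
def inFour (i : ZMod 4) (x : D) : Prop :=
  x = 1 ∨ x = .r 2 ∨ x = .sr i ∨ x = .sr (i + 2)

instance (i : ZMod 4) (x : D) : Decidable (inFour i x) := by unfold inFour; infer_instance

def InV (i : ZMod 4) (m : M) : Prop := m.right = 1 ∧ inFour i m.left.1 ∧ inFour i m.left.2
def InW (m : M) : Prop := InV 0 m ∧ InV 1 m
def InZ (m : M) : Prop := m = 1 ∨ m = gz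

instance (i : ZMod 4) (m : M) : Decidable (InV i m) := by unfold InV; infer_instance
instance (m : M) : Decidable (InW m) := by unfold InW; infer_instance
instance (m : M) : Decidable (InZ m) := by unfold InZ; infer_instance

set_option maxRecDepth 100000

theorem inV_mul : ∀ x : M, InV 0 x → ∀ y : M, InV 0 y → InV 0 (x * y) := by decide +kernel
theorem inV_mul' : ∀ x : M, InV 1 x → ∀ y : M, InV 1 y → InV 1 (x * y) := by decide +kernel
theorem inV_inv : ∀ x : M, (InV 0 x → InV 0 x⁻¹) ∧ (InV 1 x → InV 1 x⁻¹) := by decide +kernel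

def V1 : Subgroup M where
  carrier := {x | InV 0 x}
  one_mem' := by decide
  mul_mem' {x y} hx hy := inV_mul x hx y hy
  inv_mem' {x} := (inV_inv x).1

def V2 : Subgroup M where
  carrier := {x | InV 1 x}
  one_mem' := by decide
  mul_mem' {x y} hx hy := inV_mul' x hx y hy
  inv_mem' {x} := (inV_inv x).2

theorem card_V1 : Nat.card V1 = 16 := by
  have : Fintype.card {x : M // InV 0 x} = 16 := by decide +kernel
  rw [← this, ← Nat.card_eq_fintype_card]; rfl

theorem card_V2 : Nat.card V2 = 16 := by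
  have : Fintype.card {x : M // InV 1 x} = 16 := by decide +kernel
  rw [← this, ← Nat.card_eq_fintype_card]; rfl

theorem inV_conj : ∀ x : M, (InV 0 x ∨ InV 1 x) → ∀ g : M,
    (InV 0 x → InV 0 (g * x * g⁻¹)) ∧ (InV 1 x → InV 1 (g * x * g⁻¹)) := by decide +kernel

theorem inV_sq : ∀ x : M, (InV 0 x ∨ InV 1 x) → x * x = 1 := by decide +kernel

theorem inV_comm : ∀ x : M, InV 0 x → ∀ y : M, InV 0 y → x * y = y * x := by decide +kernel
theorem inV_comm' : ∀ x : M, InV 1 x → ∀ y : M, InV 1 y → x * y = y * x := by decide +kernel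

/-- An involution commuting with its conjugates lies in one of the two four-group products. -/
theorem good_mem : ∀ x : M, x * x = 1 →
    x * (ga * gb * x * (ga * gb)⁻¹) = ga * gb * x * (ga * gb)⁻¹ * x →
    x * (gt * x * gt⁻¹) = gt * x * gt⁻¹ * x → InV 0 x ∨ InV 1 x := by decide +kernel

theorem centralizer_base : ∀ x : M, x * ga = ga * x → x * gb = gb * x → x * ga' = ga' * x →
    x * gb' = gb' * x → InW x := by decide +kernel

theorem center_eq : ∀ x : M, x * ga = ga * x → x * gb = gb * x → x * gt = gt * x → InZ x := by decide +kernel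

theorem gz_central : ∀ x : M, x * gz = gz * x := by decide +kernel

theorem inW_cases : ∀ x : M, InW x → x = 1 ∨ x = gc ∨ x = gc' ∨ x = gz := by decide +kernel

/-- `x * y * x⁻¹ * y⁻¹` lies in the group generated by `z`. -/
def CommIn (z x y : M) : Prop := x * y * x⁻¹ * y⁻¹ = 1 ∨ x * y * x⁻¹ * y⁻¹ = z

instance (z x y : M) : Decidable (CommIn z x y) := by unfold CommIn; infer_instance

/-- Where the standard generators can go, inside a given four-group product. -/
theorem narrow_a : ∀ x : M, InV 0 x → ¬ InW x → CommIn gc x gb → CommIn gc x gb' → InW (ga * x) := by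
  decide +kernel
theorem narrow_a' : ∀ x : M, InV 0 x → ¬ InW x → CommIn gc' x gb → CommIn gc' x gb' → InW (ga' * x) := by
  decide +kernel
theorem narrow_b : ∀ x : M, InV 1 x → ¬ InW x → CommIn gc x ga → CommIn gc x ga' → InW (gb * x) := by
  decide +kernel
theorem narrow_b' : ∀ x : M, InV 1 x → ¬ InW x → CommIn gc' x ga → CommIn gc' x ga' → InW (gb' * x) := by
  decide +kernel

theorem gen_facts : (InV 0 ga ∧ InV 0 ga' ∧ InV 1 gb ∧ InV 1 gb' ∧ InW gc ∧ InW gc' ∧ gc ≠ 1 ∧ gc' ≠ 1 ∧
      gc ≠ gz ∧ gc' ≠ gz ∧ gc ≠ gc' ∧ gc * gc' = gz ∧ gz ≠ 1) ∧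
    (¬ InW ga ∧ ¬ InW gb ∧ ¬ InW ga' ∧ ¬ InW gb') ∧
    (gt * gt = 1 ∧ gt * gc * gt = gc' ∧ gt * ga * gt = ga' ∧ gt * gb * gt = gb') := by decide +kernel

theorem adjust : ∀ w₁ : M, InW w₁ → ∀ w₂ : M, InW w₂ →
    (∃ u ∈ ([1, ga, gb, ga * gb] : List M), InZ (gb * (u * (gb * w₁) * u⁻¹)) ∧ InZ (ga * (u * (ga * w₂) * u⁻¹))) ∧
    (∃ u ∈ ([1, ga', gb', ga' * gb'] : List M),
      InZ (gb' * (u * (gb' * w₁) * u⁻¹)) ∧ InZ (ga' * (u * (ga' * w₂) * u⁻¹))) := by decide +kernel

theorem tau_eq : ∀ τ : M, τ * τ = 1 → InZ (ga' * (τ * ga * τ⁻¹)) → InZ (gb' * (τ * gb * τ⁻¹)) →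
    InZ (ga * (τ * ga' * τ⁻¹)) → InZ (gb * (τ * gb' * τ⁻¹)) → InZ (gt * τ) := by decide +kernel

theorem square_eq : ∀ m : M, m * gt = gt * m → InZ (ga * (m * ga * m⁻¹)) → InZ (gb * (m * gb * m⁻¹)) →
    InZ (ga' * (m * ga' * m⁻¹)) → InZ (gb' * (m * gb' * m⁻¹)) → InZ m := by decide +kernel

/-- Extensionality for homomorphisms from `D`. -/
theorem D_ext {G : Type*} [Group G] {f g : D →* G} (h0 : f (.sr 0) = g (.sr 0)) (h1 : f (.sr 1) = g (.sr 1)) :
    f = g := by
  refine MonoidHom.ext fun x => ?_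
  have hx : ∀ x : D, ∃ (i : Fin 4) (j : Fin 2), x = (DihedralGroup.sr 0 * DihedralGroup.sr 1) ^ (i : ℕ) *
      (DihedralGroup.sr 0 : D) ^ (j : ℕ) := by decide
  obtain ⟨i, j, rfl⟩ := hx x
  simp only [map_mul, map_pow, h0, h1]

theorem N_ext {G : Type*} [Group G] {f g : N →* G} (h0 : f (.sr 0, 1) = g (.sr 0, 1))
    (h1 : f (.sr 1, 1) = g (.sr 1, 1)) (h2 : f (1, .sr 0) = g (1, .sr 0)) (h3 : f (1, .sr 1) = g (1, .sr 1)) :
    f = g := by
  refine MonoidHom.ext fun x => ?_
  have e1 : f.comp (MonoidHom.inl D D) = g.comp (MonoidHom.inl D D) := D_ext h0 h1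
  have e2 : f.comp (MonoidHom.inr D D) = g.comp (MonoidHom.inr D D) := D_ext h2 h3
  have hx : x = (x.1, 1) * (1, x.2) := by simp
  rw [hx, map_mul, map_mul]
  exact congrArg₂ (· * ·) (DFunLike.congr_fun e1 x.1) (DFunLike.congr_fun e2 x.2)

theorem M_gen (H : Subgroup M) (h0 : ga ∈ H) (h1 : gb ∈ H) (h2 : ga' ∈ H) (h3 : gb' ∈ H) (h4 : gt ∈ H) :
    H = ⊤ := by
  have hx : ∀ x : M, ∃ (i k : Fin 4) (j l e : Fin 2),
      x = (ga * gb) ^ (i : ℕ) * ga ^ (j : ℕ) * ((ga' * gb') ^ (k : ℕ) * ga' ^ (l : ℕ)) * gt ^ (e : ℕ) := by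
    decide +kernel
  refine Subgroup.eq_top_iff' H |>.2 fun x => ?_
  obtain ⟨i, k, j, l, e, rfl⟩ := hx x
  exact mul_mem (mul_mem (mul_mem (pow_mem (mul_mem h0 h1) _) (pow_mem h0 _))
    (mul_mem (pow_mem (mul_mem h2 h3) _) (pow_mem h2 _))) (pow_mem h4 _)

section Lift

variable {G : Type*} [Group G]

/-- The homomorphism from `D` given by two involutions whose product has order dividing 4. -/
def dl (a b : G) (ha : a * a = 1) (hb : b * b = 1) (hab : (a * b) ^ 4 = 1) : D →* G where
  toFun
    | .r i => (a * b) ^ i.val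
    | .sr i => a * (a * b) ^ i.val
  map_one' := by rw [DihedralGroup.one_def]; simp
  map_mul' := by
    have ha' : a⁻¹ = a := inv_eq_of_mul_eq_one_right ha
    have hb' : b⁻¹ = b := inv_eq_of_mul_eq_one_right hb
    have hadd : ∀ i j : ZMod 4, (a * b) ^ (i + j).val = (a * b) ^ i.val * (a * b) ^ j.val := fun i j => by
      rw [ZMod.val_add, ← pow_add]
      exact (pow_eq_pow_mod _ hab).symm
    have hsub : ∀ i j : ZMod 4, (a * b) ^ (j - i).val = ((a * b) ^ i.val)⁻¹ * (a * b) ^ j.val := fun i j => by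
      rw [eq_inv_mul_iff_mul_eq, ← hadd, add_sub_cancel]
    have hsr : ∀ n : ℕ, (a * b) ^ n * a = a * ((a * b) ^ n)⁻¹ := fun n => by
      induction n with
      | zero => simp
      | succ n ih =>
        rw [pow_succ', mul_assoc, ih, ← mul_assoc]
        conv_rhs => rw [← pow_succ', pow_succ, mul_inv_rev, mul_inv_rev, ha', hb', ← mul_assoc, ← mul_assoc]
    rintro (i | i) (j | j)
    · simp only [DihedralGroup.r_mul_r]; exact hadd i j
    · simp only [DihedralGroup.r_mul_sr]
      rw [hsub, ← mul_assoc, ← mul_assoc, hsr]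
    · simp only [DihedralGroup.sr_mul_r]; rw [hadd, mul_assoc]
    · simp only [DihedralGroup.sr_mul_sr]
      rw [hsub, ← mul_assoc (a * (a * b) ^ i.val), mul_assoc a ((a * b) ^ i.val) a, hsr, ← mul_assoc a a, ha, one_mul]

theorem commute_dl {x a b : G} (ha : a * a = 1) (hb : b * b = 1) (hab : (a * b) ^ 4 = 1) (h1 : Commute x a)
    (h2 : Commute x b) : ∀ m : D, Commute x (dl a b ha hb hab m) := by
  rintro (i | i)
  · exact (h1.mul_right h2).pow_right _
  · exact h1.mul_right ((h1.mul_right h2).pow_right _)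

/-- Three elements satisfying the relations of the wreath product. -/
structure Gens (a b t : G) : Prop where
  ha : a * a = 1
  hb : b * b = 1
  ht : t * t = 1
  hab : (a * b) ^ 4 = 1
  haa : a * (t * a * t) = t * a * t * a
  hat : a * (t * b * t) = t * b * t * a
  hbb : b * (t * b * t) = t * b * t * b

variable {a b t : G}

theorem Gens.conj_mul (h : Gens a b t) (x y : G) : t * x * t * (t * y * t) = t * (x * y) * t := by
  calc t * x * t * (t * y * t) = t * x * (t * t) * y * t := by group
    _ = t * (x * y) * t := by rw [h.ht]; group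

theorem Gens.conj_conj (h : Gens a b t) (x : G) : t * (t * x * t) * t = x := by
  calc t * (t * x * t) * t = (t * t) * x * (t * t) := by group
    _ = x := by rw [h.ht]; group

theorem Gens.hba (h : Gens a b t) : b * (t * a * t) = t * a * t * b := by
  have e : t * (t * b * t) * t * (t * a * t) = t * a * t * (t * (t * b * t) * t) := by
    rw [h.conj_mul, h.conj_mul, h.hat]
  rwa [h.conj_conj] at e

theorem Gens.hab' (h : Gens a b t) : (t * a * t * (t * b * t)) ^ 4 = 1 := by
  have ht' : t⁻¹ = t := inv_eq_of_mul_eq_one_right h.ht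
  have : t * a * t * (t * b * t) = t * (a * b) * t⁻¹ := by rw [h.conj_mul, ht']
  rw [this, conj_pow, h.hab, mul_one, mul_inv_cancel]

/-- The homomorphism on the base. -/
def Gens.base (h : Gens a b t) : N →* G :=
  (dl a b h.ha h.hb h.hab).noncommCoprod
    (dl (t * a * t) (t * b * t) (by rw [h.conj_mul, h.ha, mul_one, h.ht])
      (by rw [h.conj_mul, h.hb, mul_one, h.ht]) h.hab') fun m n => by
      refine commute_dl _ _ _ ?_ ?_ n
      · exact (commute_dl _ _ _ (h.haa).symm (h.hba).symm m).symm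
      · exact (commute_dl _ _ _ (h.hat).symm (h.hbb).symm m).symm

theorem Gens.base_gens (h : Gens a b t) : h.base (.sr 0, 1) = a ∧ h.base (.sr 1, 1) = b ∧
    h.base (1, .sr 0) = t * a * t ∧ h.base (1, .sr 1) = t * b * t := by
  have e0 : ∀ (x y : G) (hx : x * x = 1) (hy : y * y = 1) (hxy : (x * y) ^ 4 = 1),
      dl x y hx hy hxy (.sr 0) = x ∧ dl x y hx hy hxy (.sr 1) = y := by
    intro x y hx hy hxy
    constructor
    · show x * (x * y) ^ (0 : ZMod 4).val = x
      simp
    · show x * (x * y) ^ (1 : ZMod 4).val = y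
      rw [show (1 : ZMod 4).val = 1 from rfl, pow_one, ← mul_assoc, hx, one_mul]
  simp [Gens.base, MonoidHom.noncommCoprod_apply, e0]

/-- The homomorphism from the wreath product. -/
def Gens.hom (h : Gens a b t) : M →* G :=
  SemidirectProduct.lift h.base (ofInvol t h.ht) fun g => by
    have hx : ∀ z : C2, z = 1 ∨ z = one2 := by decide
    rcases hx g with rfl | rfl
    · refine MonoidHom.ext fun n => ?_
      simp
    · obtain ⟨e0, e1, e2, e3⟩ := h.base_gens
      have ht' : t⁻¹ = t := inv_eq_of_mul_eq_one_right h.ht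
      refine N_ext ?_ ?_ ?_ ?_ <;>
        simp [φM, ofInvol_one2, swapN, e0, e1, e2, e3, ht', h.conj_conj]

theorem Gens.hom_gens (h : Gens a b t) : h.hom ga = a ∧ h.hom gb = b ∧ h.hom gt = t := by
  obtain ⟨e0, e1, -, -⟩ := h.base_gens
  simp [Gens.hom, ga, gb, gt, e0, e1, ofInvol_one2]

end Lift

def pa : Equiv.Perm (Fin 8) := Equiv.swap 0 1
def pb : Equiv.Perm (Fin 8) := Equiv.swap 0 2 * Equiv.swap 1 3
def pt : Equiv.Perm (Fin 8) := Equiv.swap 0 4 * Equiv.swap 1 5 * (Equiv.swap 2 6 * Equiv.swap 3 7)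

theorem permGens : Gens pa pb pt :=
  ⟨by decide +kernel, by decide +kernel, by decide +kernel, by decide +kernel, by decide +kernel,
    by decide +kernel, by decide +kernel⟩

theorem permGens_ker : ∀ x : M, permGens.hom x = 1 → x = 1 := by decide +kernel

theorem permGens_card : Fintype.card M = 2 ^ 7 := by decide +kernel

/-- The model is a Sylow `2`-subgroup of the symmetric group of degree 8. -/
theorem exists_sylow_equiv (T : Sylow 2 (Equiv.Perm (Fin 8))) :
    Nonempty (M ≃* ↥(T : Subgroup (Equiv.Perm (Fin 8)))) := by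
  haveI : Fact (Nat.Prime 2) := ⟨Nat.prime_two⟩
  let h := permGens
  have hinj : Function.Injective h.hom := by
    rw [← MonoidHom.ker_eq_bot_iff, Subgroup.eq_bot_iff_forall]
    intro x hx
    exact permGens_ker x hx
  let e := MonoidHom.ofInjective hinj
  have hc : Nat.card h.hom.range = 2 ^ 7 := by
    rw [← Nat.card_congr e.toEquiv, Nat.card_eq_fintype_card, permGens_card]
  obtain ⟨T0, hT0⟩ := (IsPGroup.of_card hc).exists_le_sylow
  have hT0' : (T0 : Subgroup (Equiv.Perm (Fin 8))) = h.hom.range := by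
    refine (Subgroup.eq_of_le_of_card_ge hT0 ?_).symm
    obtain ⟨k, hk⟩ := T0.2.exists_card_eq
    have hd := Subgroup.card_subgroup_dvd_card (T0 : Subgroup (Equiv.Perm (Fin 8)))
    rw [hk, Nat.card_eq_fintype_card, Fintype.card_perm, Fintype.card_fin] at hd
    rw [hc, hk]
    by_contra hlt
    have h8 : 2 ^ 8 ∣ 2 ^ k := pow_dvd_pow 2 ((Nat.pow_lt_pow_iff_right (by norm_num)).1 (not_le.1 hlt))
    exact absurd (h8.trans hd) (by decide)
  exact ⟨e.trans ((MulEquiv.subgroupCongr hT0'.symm).trans (T0.equiv T))⟩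

theorem card_M : Nat.card M = 128 := by
  rw [SemidirectProduct.card, Nat.card_prod, DihedralGroup.nat_card]
  simp

end Cfsg.Agent.Lib.SylowS8
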