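import Cfsg.Agent.Lib.SylowS8.Model

/-! The extension of the model by the automorphism exchanging the standard generators. -/

set_option autoImplicit false

namespace Cfsg.Agent.Lib.SylowS8

open SemidirectProduct

def rz : R := inl (DihedralGroup.r 2, DihedralGroup.r 2)
def rA : R := inr (one2, 1)
def rT : R := inl (DihedralGroup.sr 0, 1)
def rB : R := inr (one2, 1) * inr (1, one2) *
  inl (DihedralGroup.sr 0 * DihedralGroup.sr 1 * DihedralGroup.sr 0, DihedralGroup.sr 0)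

def EqZ (x y : R) : Prop := x = y ∨ x = y * rz

instance (x y : R) : Decidable (EqZ x y) := by unfold EqZ; infer_instance

set_option maxRecDepth 100000

theorem twist_rel : EqZ (rA * rA) 1 ∧ EqZ (rB * rB) 1 ∧ EqZ (rT * rT) 1 ∧ EqZ ((rA * rB) ^ 4) 1 ∧
    EqZ (rA * (rT * rA * rT)) (rT * rA * rT * rA) ∧ EqZ (rA * (rT * rB * rT)) (rT * rB * rT * rA) ∧
    EqZ (rB * (rT * rB * rT)) (rT * rB * rT * rB) := by decide +kernel

theorem twist_gen :
    let a' := rA * rT * rA
    let b₀ := rB * rT * rB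
    let e := inl (DihedralGroup.sr 0 * DihedralGroup.sr 1 * DihedralGroup.sr 0, DihedralGroup.sr 0)
    EqZ (inl (1, DihedralGroup.sr 0)) a' ∧
      (EqZ (inl (1, DihedralGroup.sr 1)) b₀ ∨ EqZ (inl (1, DihedralGroup.sr 1)) (b₀ * (a' * b₀) ^ 2)) ∧
      EqZ (inl (DihedralGroup.sr 1, 1)) (rA * inl (1, DihedralGroup.sr 1) * rA) ∧
      EqZ (inr (1, one2)) (rA * rB * e⁻¹) := by decide +kernel

/-- A group generated by a swap and a twist of the base has the three standard generators. -/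
theorem gens_of_twist {G : Type*} [Group G] (f : R →* G) (hz : f rz = 1) :
    ∃ h : Gens (f rA : G) (f rB : G) (f rT : G), ∀ y : R, (f y : G) ∈ (Gens.hom h).range := by
  have key : ∀ x y : R, EqZ x y → f x = f y := by
    rintro x y (rfl | rfl)
    · rfl
    · rw [map_mul, hz, mul_one]
  obtain ⟨r1, r2, r3, r4, r5, r6, r7⟩ := twist_rel
  have h : Gens (f rA) (f rB) (f rT) :=
    ⟨by simpa using key _ _ r1, by simpa using key _ _ r2, by simpa using key _ _ r3, by simpa using key _ _ r4,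
      by simpa using key _ _ r5, by simpa using key _ _ r6, by simpa using key _ _ r7⟩
  refine ⟨h, ?_⟩
  obtain ⟨e1, e2, e3⟩ := h.hom_gens
  set X := h.hom.range.comap f
  have hA : rA ∈ X := ⟨ga, e1⟩
  have hB : rB ∈ X := ⟨gb, e2⟩
  have hT : rT ∈ X := ⟨gt, e3⟩
  have hX : ∀ x y : R, EqZ x y → y ∈ X → x ∈ X := fun x y hxy hy => by
    show f x ∈ h.hom.range
    rw [key _ _ hxy]
    exact hy
  obtain ⟨g1, g2, g3, g4⟩ := twist_gen
  have ha' := hX _ _ g1 (mul_mem (mul_mem hA hT) hA)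
  have hb₀ := mul_mem (mul_mem hB hT) hB
  have hb' : (inl ((1, DihedralGroup.sr 1) : N) : R) ∈ X :=
    g2.elim (fun g => hX _ _ g hb₀) fun g => hX _ _ g (mul_mem hb₀ (pow_mem (mul_mem (mul_mem (mul_mem hA hT) hA) hb₀) 2))
  have hb := hX _ _ g3 (mul_mem (mul_mem hA hb') hA)
  have hinl : ∀ n : N, (inl n : R) ∈ X := by
    intro n
    have hn : ∀ n : N, ∃ (i k : Fin 4) (j l : Fin 2),
        n = ((DihedralGroup.sr 0, 1) * (DihedralGroup.sr 1, 1)) ^ (i : ℕ) * (DihedralGroup.sr 0, 1) ^ (j : ℕ) *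
          (((1, DihedralGroup.sr 0) * (1, DihedralGroup.sr 1)) ^ (k : ℕ) * (1, DihedralGroup.sr 0) ^ (l : ℕ)) := by
      decide +kernel
    obtain ⟨i, k, j, l, rfl⟩ := hn n
    simp only [map_mul, map_pow]
    exact mul_mem (mul_mem (pow_mem (mul_mem hT hb) _) (pow_mem hT _))
      (mul_mem (pow_mem (mul_mem ha' hb') _) (pow_mem ha' _))
  have hx := hX _ _ g4 (mul_mem (mul_mem hA hB) (inv_mem (hinl _)))
  intro y
  show y ∈ X
  have hk : ∀ k : K, (inr k : R) ∈ X := by
    intro k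
    have hk' : ∀ k : K, ∃ i j : Fin 2, k = (one2, 1) ^ (i : ℕ) * (1, one2) ^ (j : ℕ) := by decide
    obtain ⟨i, j, rfl⟩ := hk' k
    simp only [map_mul, map_pow]
    exact mul_mem (pow_mem hA _) (pow_mem hx _)
  rw [← inl_left_mul_inr_right y]
  exact mul_mem (hinl _) (hk _)

end Cfsg.Agent.Lib.SylowS8
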